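import Cfsg.Agent.H388.Wf.Pan
import Cfsg.Agent.H533.Wf.Key

/-!
# S3826, own characteristic, assembly for any odd `p` (helper388)

* `FPair p S c d` : some `S`-conjugate `d'` of `d`: `⟨c, d'⟩` is not a `p`-group or involves
  `C_p ≀ C_p`; `FRow p K` : all pairs of automorphisms of order `p`; `WfRow.of_frow`;
* `wrow_of`, `frow_of` : `H798.T5Asm.wrow_of` without `5 ≤ p`, and its analogue for `FRow`.
-/

set_option autoImplicit false
set_option linter.unusedSectionVars false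
set_option maxHeartbeats 400000

namespace Cfsg.Agent.H388.Wf.Asm

universe u v

open Cfsg.Agent.H533.T5 Cfsg.Agent.H533.Wf

section FPair

variable {G : Type*} [Group G] {H : Type*} [Group H] {p : ℕ}

/-- Some `S`-conjugate `d'` of `d` generates with `c` a group which is not a `p`-group in which
`C_p ≀ C_p` is not involved. -/
def FPair (p : ℕ) (S : Subgroup G) (c d : G) : Prop :=
  ∃ g ∈ S, ¬ (IsPGroup p ↥(Subgroup.closure ({c, g * d * g⁻¹} : Set G)) ∧
    WFree p ↥(Subgroup.closure ({c, g * d * g⁻¹} : Set G)))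

theorem FPair.of_wpair {S : Subgroup G} {c d : G} (h : WPair p S c d) : FPair p S c d := by
  obtain ⟨g, hg, h⟩ := h
  exact ⟨g, hg, fun h1 => h h1.1⟩

theorem FPair.symm {S : Subgroup G} {c d : G} (h : FPair p S c d) : FPair p S d c := by
  obtain ⟨g, hg, h⟩ := h
  refine ⟨g⁻¹, inv_mem hg, fun h1 => h ?_⟩
  have h2 : (Subgroup.closure ({d, g⁻¹ * c * g⁻¹⁻¹} : Set G)).map (MulAut.conj g).toMonoidHom =
      Subgroup.closure ({c, g * d * g⁻¹} : Set G) := by
    rw [closure_pair_map, Set.pair_comm]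
    congr 2
    · show g * (g⁻¹ * c * g⁻¹⁻¹) * g⁻¹ = c
      group
  rw [← h2]
  exact ⟨h1.1.map _, h1.2.map _⟩

theorem FPair.of_hom (φ : G →* H) {S : Subgroup G} {T : Subgroup H} (hT : T ≤ S.map φ) {c d : G}
    (h : FPair p T (φ c) (φ d)) : FPair p S c d := by
  obtain ⟨t, ht, h⟩ := h
  obtain ⟨g, hg, rfl⟩ := hT ht
  refine ⟨g, hg, fun h1 => h ?_⟩
  have h2 : Subgroup.closure ({φ c, φ g * φ d * (φ g)⁻¹} : Set H)
      = (Subgroup.closure ({c, g * d * g⁻¹} : Set G)).map φ := by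
    rw [closure_pair_map]; simp
  rw [h2]
  exact ⟨h1.1.map _, h1.2.map _⟩

theorem FPair.of_injective (φ : G →* H) (hφ : Function.Injective φ) {S : Subgroup G} {c d : G}
    (h : FPair p S c d) : FPair p (S.map φ) (φ c) (φ d) := by
  obtain ⟨g, hg, h⟩ := h
  refine ⟨φ g, Subgroup.mem_map_of_mem φ hg, fun h1 => h ?_⟩
  have h2 : Subgroup.closure ({φ c, φ g * φ d * (φ g)⁻¹} : Set H)
      = (Subgroup.closure ({c, g * d * g⁻¹} : Set G)).map φ := by
    rw [closure_pair_map]; simp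
  rw [h2] at h1
  have e := Subgroup.equivMapOfInjective (Subgroup.closure ({c, g * d * g⁻¹} : Set G)) φ hφ
  exact ⟨h1.1.of_equiv e.symm, h1.2.of_injective e.toMonoidHom e.injective⟩

theorem FPair.mono {S T : Subgroup G} {c d : G} (h : FPair p S c d) (hST : S ≤ T) : FPair p T c d := by
  obtain ⟨g, hg, h⟩ := h
  exact ⟨g, hST hg, h⟩

/-- Conjugating the two elements. -/
theorem FPair.conj {c d : G} {s t : G} (h : FPair p (⊤ : Subgroup G) (s * c * s⁻¹) (t * d * t⁻¹)) :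
    FPair p (⊤ : Subgroup G) c d := by
  obtain ⟨g, -, h⟩ := h
  refine ⟨s⁻¹ * g * t, Subgroup.mem_top _, fun h1 => h ?_⟩
  have h2 : (Subgroup.closure ({c, s⁻¹ * g * t * d * (s⁻¹ * g * t)⁻¹} : Set G)).map (MulAut.conj s).toMonoidHom =
      Subgroup.closure ({s * c * s⁻¹, g * (t * d * t⁻¹) * g⁻¹} : Set G) := by
    rw [closure_pair_map]
    congr 2
    show ({s * (s⁻¹ * g * t * d * (s⁻¹ * g * t)⁻¹) * s⁻¹} : Set G) = _
    congr 1
    group
  rw [← h2]
  exact ⟨h1.1.map _, h1.2.map _⟩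

theorem _root_.Cfsg.Agent.H388.Wf.Hyp.false_of_fpair {C D : Set G} (h : Hyp p C D) {T : Subgroup G} {c d : G}
    (hc : c ∈ C) (hd : d ∈ D) (hw : FPair p T c d) : False := by
  obtain ⟨g, -, hg⟩ := hw
  exact hg ⟨h.pair c hc _ (h.conjD g d hd), h.free c hc _ (h.conjD g d hd)⟩

/-- All pairs of automorphisms of order `p`. -/
def FRow (p : ℕ) (K : Type*) [Group K] : Prop :=
  ∀ c d : MulAut K, orderOf c = p → orderOf d = p → FPair p (MulAut.conj : K →* MulAut K).range c d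

theorem FRow.of_wrow {K : Type*} [Group K] (h : WRow p K) : FRow p K :=
  fun c d hc hd => .of_wpair (h c d hc hd)

end FPair

/-- **The rows of S3826 from `FRow`.** -/
theorem WfRow.of_frow {p : ℕ} [Fact p.Prime] {K : Type v} [Group K] (hK : FRow p K) :
    WfRow.{u, v} p K := by
  rintro G _ _ S C D h ⟨e⟩
  obtain ⟨c, hc⟩ := h.neC
  obtain ⟨d, hd⟩ := h.neD
  have hSn := h.normal
  let φ₀ : G →* MulAut S := MulAut.conjNormal
  have hφ₀ : Function.Injective φ₀ := by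
    rw [injective_iff_map_eq_one]
    intro g hg
    have h1 : g ∈ Subgroup.centralizer (S : Set G) := by
      rw [Subgroup.mem_centralizer_iff]
      intro s hs
      have h2 : (φ₀ g) ⟨s, hs⟩ = ⟨s, hs⟩ := by rw [hg]; rfl
      have h3 : g * s * g⁻¹ = s := by
        have := congrArg Subtype.val h2
        rwa [MulAut.conjNormal_apply] at this
      calc s * g = (g * s * g⁻¹) * g := by rw [h3]
        _ = g * s := by group
    rwa [h.cent, Subgroup.mem_bot] at h1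
  let φ : G →* MulAut K := (MulAut.congr e).toMonoidHom.comp φ₀
  have hφ : Function.Injective φ := (MulAut.congr e).injective.comp hφ₀
  have h1 : FPair p (MulAut.conj : K →* MulAut K).range (φ c) (φ d) := by
    refine hK _ _ ?_ ?_
    · rw [orderOf_injective φ hφ]; exact h.ordC c hc
    · rw [orderOf_injective φ hφ]; exact h.ordD d hd
  refine Cfsg.Agent.H388.Wf.Hyp.false_of_fpair h.toHyp hc hd (h1.of_hom φ (S := S) ?_)
  rintro _ ⟨k, rfl⟩
  refine ⟨(e.symm k : S), (e.symm k).2, ?_⟩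
  ext x
  show e (MulAut.conjNormal ((e.symm k : S) : G) (e.symm x)) = k * x * k⁻¹
  have h2 : MulAut.conjNormal ((e.symm k : S) : G) (e.symm x) = e.symm k * e.symm x * (e.symm k)⁻¹ := by
    apply Subtype.ext
    rw [MulAut.conjNormal_apply]
    rfl
  rw [h2, map_mul, map_mul, map_inv, e.apply_symm_apply, e.apply_symm_apply]

open Cfsg CoxeterSystem Cfsg.Agent.ChevalleyStructure.CoxeterGeom Cfsg.Agent.Tits.Roots Cfsg.Agent.Tits.Core
  Cfsg.Agent.Tits.Core.Bldg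
  Cfsg.Agent.Tits.OfBN Cfsg.Agent.Schreier.BNSch Cfsg.Agent.Tits.OppRes Cfsg.Agent.FixBN.OfBN
  Cfsg.Agent.Tits.RootComb Cfsg.Agent.Nodes.Comb Cfsg.Agent.Nodes.Reps Cfsg.Agent.Nodes.BNOf
  Cfsg.Agent.Nodes.StabComb Cfsg.Agent.Nodes.Bruhat Cfsg.Agent.Nodes.OppDec Cfsg.Agent.Nodes.LeviDec
  Cfsg.Agent.LieExceptional.BNPairCore
open Cfsg.Agent.H460.Typed Cfsg.Agent.H460.EllC Cfsg.Agent.H460.PanL
  Cfsg.Agent.H185.TypedTw Cfsg.Agent.H460.EllPan Cfsg.Agent.H460.Engine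
open Cfsg.Agent.H798.T5Geo Cfsg.Agent.H798.T5Pan Cfsg.Agent.H798.T5Tp Cfsg.Agent.H798.T5Asm

section Asm

variable {K : Type*} [Group K] [Finite K] {ℓ : ℕ} [Fact ℓ.Prime] {l : ℕ} {M : CoxeterMatrix (Fin l)} {Q : Fin l → ℕ}
  {A : Fin l → Fin l → ℤ} {h : IsCartan M A} {T : Subgroup K} {n : Fin l → K}
  {X : (Fin l → ℤ) → Subgroup K} [Finite M.Group]

variable (R : RGD M.toCoxeterSystem h ℓ T n X) {E : Eng ℓ K M Q} (hB : E.P.B = RGD.B M.toCoxeterSystem h T X)
  (he : ∀ i, (E.e i : K) = n i)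

omit [Finite K] [Finite M.Group] in
/-- `K → Aut K` is injective. -/
theorem conj_inj [IsSimpleGroup K] (hcc : ∃ a b : K, a * b ≠ b * a) :
    Function.Injective (MulAut.conj : K →* MulAut K) := by
  rw [injective_iff_map_eq_one]
  intro x hx
  by_contra hx1
  rcases (inferInstance : (MulAut.conj : K →* MulAut K).ker.Normal).eq_bot_or_eq_top with h3 | h3
  · apply hx1
    rw [← Subgroup.mem_bot, ← h3]
    exact hx
  · obtain ⟨a, b, hab⟩ := hcc
    apply hab
    have h4 : a ∈ (MulAut.conj : K →* MulAut K).ker := h3 ▸ Subgroup.mem_top a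
    have h5 : a * b * a⁻¹ = b := by
      have := congrArg (fun f : MulAut K => f b) (MonoidHom.mem_ker.1 h4)
      simpa using this
    calc a * b = a * b * a⁻¹ * a := by group
      _ = b * a := by rw [h5]

include R hB he

/-- **The general assembly**: `Pr` is a property of pairs of automorphisms implied by the weak pair
property. -/
theorem row_of [IsSimpleGroup K] [Nonempty (Fin l)] (hcc : ∃ a b : K, a * b ≠ b * a)
    (hG : GG M.toCoxeterSystem h T X = ⊤) (hℓ : ℓ ≠ 2)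
    (hF : ∀ i, FNode E.P E.U (E.e i : K) (Q i)) {Pr : MulAut K → MulAut K → Prop}
    (hPr : ∀ c d, WPair ℓ (MulAut.conj : K →* MulAut K).range c d → Pr c d)
    (hin : ∀ x y : K, x ^ ℓ = 1 → y ^ ℓ = 1 → x ≠ 1 → y ≠ 1 →
      (∃ i, NT M.toCoxeterSystem h X x i ∧ NT M.toCoxeterSystem h X y i) ∨
        Pr (MulAut.conj x) (MulAut.conj y))
    (hout : ∀ c : MulAut K, orderOf c = ℓ → (∃ g : K, c = MulAut.conj g) ∨ ∀ i, TP E c i) (c d : MulAut K)
    (hc : orderOf c = ℓ) (hd : orderOf d = ℓ) : Pr c d := by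
  obtain ⟨i0⟩ := (inferInstance : Nonempty (Fin l))
  have pw : ∀ {c : MulAut K}, orderOf c = ℓ → c ^ ℓ = 1 := fun {c} hc => by rw [← hc, pow_orderOf_eq_one]
  have hNT : ∀ x : K, x ^ ℓ = 1 → x ≠ 1 → ∃ i, NT M.toCoxeterSystem h X x i := by
    intro x hx hx1
    refine exists_NT R hG ?_ hx1
    rw [IsPGroup.iff_card]
    refine ⟨1, ?_⟩
    rw [Nat.card_zpowers, pow_one, orderOf_eq_prime hx hx1]
  rcases hout c hc with hc1 | hc1
  · obtain ⟨x, rfl, hx, hx1⟩ := exists_of_inner hcc hc1 hc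
    rcases hout d hd with hd1 | hd1
    · obtain ⟨y, rfl, hy, hy1⟩ := exists_of_inner hcc hd1 hd
      rcases hin x y hx hy hx1 hy1 with ⟨i, h1, h2⟩ | h1
      · exact hPr _ _ (Pan.TP.wpair hℓ (hF i) (tp_of_NT R hB he h1) (tp_of_NT R hB he h2) (pw hc) (pw hd))
      · exact h1
    · obtain ⟨i, hi⟩ := hNT x hx hx1
      exact hPr _ _ (Pan.TP.wpair hℓ (hF i) (tp_of_NT R hB he hi) (hd1 i) (pw hc) (pw hd))
  · rcases hout d hd with hd1 | hd1
    · obtain ⟨y, rfl, hy, hy1⟩ := exists_of_inner hcc hd1 hd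
      obtain ⟨i, hi⟩ := hNT y hy hy1
      exact hPr _ _ (Pan.TP.wpair hℓ (hF i) (hc1 i) (tp_of_NT R hB he hi) (pw hc) (pw hd))
    · exact hPr _ _ (Pan.TP.wpair hℓ (hF i0) (hc1 i0) (hd1 i0) (pw hc) (pw hd))

/-- **The weak row**, any odd `p` (`H798.T5Asm.wrow_of` has `5 ≤ p`). -/
theorem wrow_of [IsSimpleGroup K] [Nonempty (Fin l)] (hcc : ∃ a b : K, a * b ≠ b * a)
    (hG : GG M.toCoxeterSystem h T X = ⊤) (hℓ : ℓ ≠ 2)
    (hF : ∀ i, FNode E.P E.U (E.e i : K) (Q i))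
    (hin : ∀ x y : K, x ^ ℓ = 1 → y ^ ℓ = 1 → x ≠ 1 → y ≠ 1 →
      (∃ i, NT M.toCoxeterSystem h X x i ∧ NT M.toCoxeterSystem h X y i) ∨
        WPair ℓ (⊤ : Subgroup K) x y)
    (hout : ∀ c : MulAut K, orderOf c = ℓ → (∃ g : K, c = MulAut.conj g) ∨ ∀ i, TP E c i) : WRow ℓ K := by
  refine row_of R hB he hcc hG hℓ hF (fun _ _ h => h) (fun x y hx hy hx1 hy1 => ?_) hout
  rcases hin x y hx hy hx1 hy1 with h1 | h1
  · exact Or.inl h1
  · right
    have := h1.of_injective (MulAut.conj : K →* MulAut K) (conj_inj hcc)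
    rwa [← MonoidHom.range_eq_map] at this

/-- **The row with the wreath product.** -/
theorem frow_of [IsSimpleGroup K] [Nonempty (Fin l)] (hcc : ∃ a b : K, a * b ≠ b * a)
    (hG : GG M.toCoxeterSystem h T X = ⊤) (hℓ : ℓ ≠ 2)
    (hF : ∀ i, FNode E.P E.U (E.e i : K) (Q i))
    (hin : ∀ x y : K, x ^ ℓ = 1 → y ^ ℓ = 1 → x ≠ 1 → y ≠ 1 →
      (∃ i, NT M.toCoxeterSystem h X x i ∧ NT M.toCoxeterSystem h X y i) ∨
        FPair ℓ (⊤ : Subgroup K) x y)
    (hout : ∀ c : MulAut K, orderOf c = ℓ → (∃ g : K, c = MulAut.conj g) ∨ ∀ i, TP E c i) : FRow ℓ K := by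
  refine row_of R hB he hcc hG hℓ hF (fun _ _ h => FPair.of_wpair h) (fun x y hx hy hx1 hy1 => ?_) hout
  rcases hin x y hx hy hx1 hy1 with h1 | h1
  · exact Or.inl h1
  · right
    have := h1.of_injective (MulAut.conj : K →* MulAut K) (conj_inj hcc)
    rwa [← MonoidHom.range_eq_map] at this

end Asm

end Cfsg.Agent.H388.Wf.Asm
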